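import Mathlib

/-!
In a group generated by two elements with square zero displacement every involution commutes with
both generators.
-/

set_option autoImplicit false

namespace Cfsg.Lib.Inverted

variable {R : Type*} [Ring R] (a b : R)

/-- `w` and `w'` have conjugate expansions in `1, a, b, a * b` over the commutant of `{a, b}`. -/
def Conj2 (w w' : R) : Prop :=
  ∃ α β γ δ : R, α ∈ Subring.centralizer ({a, b} : Set R) ∧ β ∈ Subring.centralizer ({a, b} : Set R) ∧
    γ ∈ Subring.centralizer ({a, b} : Set R) ∧ δ ∈ Subring.centralizer ({a, b} : Set R) ∧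
    w = α + β * a + γ * b + δ * (a * b) ∧
    w' = α + δ * (a * b + b * a) - β * a - γ * b - δ * (a * b)

variable {a b}

theorem conj2_one : Conj2 a b (1 : R) 1 :=
  ⟨1, 0, 0, 0, one_mem _, zero_mem _, zero_mem _, zero_mem _, by simp, by simp⟩

theorem tsum_mem (ha : a * a = 0) (hb : b * b = 0) :
    a * b + b * a ∈ Subring.centralizer ({a, b} : Set R) := by
  rw [Subring.mem_centralizer_iff]
  rintro g (rfl | rfl)
  · rw [mul_add, add_mul, ← mul_assoc g g, ha, zero_mul, zero_add, mul_assoc b g g, ha, mul_zero,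
      add_zero, mul_assoc]
  · rw [mul_add, add_mul, ← mul_assoc g g, hb, zero_mul, add_zero, mul_assoc a g g, hb, mul_zero,
      zero_add, mul_assoc]

theorem comm_of_mem {z : R} (hz : z ∈ Subring.centralizer ({a, b} : Set R)) :
    a * z = z * a ∧ b * z = z * b :=
  ⟨Subring.mem_centralizer_iff.mp hz a (Or.inl rfl), Subring.mem_centralizer_iff.mp hz b (Or.inr rfl)⟩

theorem conj2_mul_left_gen (ha : a * a = 0) (hb : b * b = 0) {w w' : R} (h : Conj2 a b w w') :
    Conj2 a b (w * (1 + a)) ((1 - a) * w') := by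
  obtain ⟨α, β, γ, δ, hα, hβ, hγ, hδ, rfl, rfl⟩ := h
  have hT := tsum_mem ha hb
  refine ⟨α + γ * (a * b + b * a), α + β + δ * (a * b + b * a), γ, δ - γ,
    add_mem hα (mul_mem hγ hT), add_mem (add_mem hα hβ) (mul_mem hδ hT), hγ, sub_mem hδ hγ, ?_, ?_⟩
  · simp only [add_mul, sub_mul, mul_add, mul_one, mul_assoc, ha, mul_zero, add_zero]
    abel
  · have e1 := (comm_of_mem hα).1
    have e2 := (comm_of_mem hβ).1
    have e3 := (comm_of_mem hγ).1
    have e4 := (comm_of_mem hδ).1
    simp only [add_mul, sub_mul, mul_add, mul_sub, one_mul, ← mul_assoc, e1, e2, e3, e4]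
    simp only [mul_assoc, ha, mul_zero, add_zero, sub_zero]
    simp only [← mul_assoc, ha, zero_mul, mul_zero, add_zero, zero_add, sub_zero]
    simp only [mul_assoc, ha, mul_zero, add_zero, zero_add, sub_zero]
    abel

theorem conj2_mul_right_gen (ha : a * a = 0) (hb : b * b = 0) {w w' : R} (h : Conj2 a b w w') :
    Conj2 a b (w * (1 + b)) ((1 - b) * w') := by
  obtain ⟨α, β, γ, δ, hα, hβ, hγ, hδ, rfl, rfl⟩ := h
  have hT := tsum_mem ha hb
  refine ⟨α, β, α + γ, δ + β, hα, hβ, add_mem hα hγ, add_mem hδ hβ, ?_, ?_⟩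
  · simp only [add_mul, mul_add, mul_one, mul_assoc, hb, mul_zero, add_zero]
    abel
  · have e1 := (comm_of_mem hα).2
    have e2 := (comm_of_mem hβ).2
    have e3 := (comm_of_mem hγ).2
    have e4 := (comm_of_mem hδ).2
    simp only [add_mul, sub_mul, mul_add, mul_sub, one_mul, ← mul_assoc, e1, e2, e3, e4]
    simp only [mul_assoc, hb, mul_zero, add_zero, sub_zero]
    simp only [← mul_assoc, hb, zero_mul, mul_zero, add_zero, zero_add, sub_zero]
    simp only [mul_assoc, hb, mul_zero, add_zero, zero_add, sub_zero]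
    abel

/-- An element that is its own inverse commutes with each generator, if `2` is regular. -/
theorem commute_of_sq_eq_one {L : Type*} [Group L] [Finite L] (ρ : L →* R) {x y : L}
    (hgen : Subgroup.closure ({x, y} : Set L) = ⊤)
    (hx : (ρ x - 1) * (ρ x - 1) = 0) (hy : (ρ y - 1) * (ρ y - 1) = 0)
    (h2 : ∀ r : R, r + r = 0 → r = 0) {z : L} (hz : ρ z * ρ z = 1) :
    ρ z * ρ x = ρ x * ρ z := by
  set a := ρ x - 1 with ha
  set b := ρ y - 1 with hb
  have hxa : ρ x = 1 + a := by rw [ha]; abel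
  have hyb : ρ y = 1 + b := by rw [hb]; abel
  have hxi : ρ x⁻¹ = 1 - a := by
    have h1 : (1 - a) * ρ x = 1 := by
      rw [hxa, sub_mul, one_mul, mul_add, mul_one, hx]; abel
    calc ρ x⁻¹ = (1 - a) * ρ x * ρ x⁻¹ := by rw [h1, one_mul]
      _ = 1 - a := by rw [mul_assoc, ← map_mul, mul_inv_cancel, map_one, mul_one]
  have hyi : ρ y⁻¹ = 1 - b := by
    have h1 : (1 - b) * ρ y = 1 := by
      rw [hyb, sub_mul, one_mul, mul_add, mul_one, hy]; abel
    calc ρ y⁻¹ = (1 - b) * ρ y * ρ y⁻¹ := by rw [h1, one_mul]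
      _ = 1 - b := by rw [mul_assoc, ← map_mul, mul_inv_cancel, map_one, mul_one]
  have hstep : ∀ w g : L, (g = x ∨ g = y) → ∀ k : ℕ, Conj2 a b (ρ w) (ρ w⁻¹) →
      Conj2 a b (ρ (w * g ^ k)) (ρ (w * g ^ k)⁻¹) := by
    intro w g hg k hw
    induction k with
    | zero => rwa [pow_zero, mul_one]
    | succ k ih =>
      rw [pow_succ, ← mul_assoc, map_mul, mul_inv_rev, map_mul ρ g⁻¹]
      rcases hg with rfl | rfl
      · rw [hxa, hxi]
        exact conj2_mul_left_gen hx hy ih
      · rw [hyb, hyi]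
        exact conj2_mul_right_gen hx hy ih
  have hall : ∀ w : L, Conj2 a b (ρ w) (ρ w⁻¹) := by
    intro w
    have hw : w ∈ Subgroup.closure ({x, y} : Set L) := hgen ▸ Subgroup.mem_top w
    induction hw using Subgroup.closure_induction_right with
    | one => rw [inv_one, map_one]; exact conj2_one
    | mul_right u _ g hg ih =>
      have := hstep u g hg 1 ih
      rwa [pow_one] at this
    | mul_inv_cancel u _ g hg ih =>
      have e : g⁻¹ = g ^ (orderOf g - 1) := by
        refine inv_eq_of_mul_eq_one_right ?_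
        rw [← pow_succ', Nat.sub_add_cancel (orderOf_pos g), pow_orderOf_eq_one]
      rw [e]
      exact hstep u g hg _ ih
  have hzi : ρ z⁻¹ = ρ z := by
    calc ρ z⁻¹ = ρ z⁻¹ * (ρ z * ρ z) := by rw [hz, mul_one]
      _ = ρ z := by rw [← mul_assoc, ← map_mul, inv_mul_cancel, map_one, one_mul]
  obtain ⟨α, β, γ, δ, hα, hβ, hγ, hδ, e1, e2⟩ := hall z
  rw [hzi] at e2
  have hsum : ρ z + ρ z = α + α + δ * (a * b + b * a) := by
    nth_rewrite 2 [e2]
    rw [e1]
    abel
  have hc : a * (ρ z + ρ z) = (ρ z + ρ z) * a := by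
    rw [hsum]
    exact (comm_of_mem (add_mem (add_mem hα hα) (mul_mem hδ (tsum_mem hx hy)))).1
  have hza : a * ρ z = ρ z * a := by
    refine sub_eq_zero.mp (h2 _ ?_)
    rw [mul_add, add_mul] at hc
    calc a * ρ z - ρ z * a + (a * ρ z - ρ z * a) = a * ρ z + a * ρ z - (ρ z * a + ρ z * a) := by abel
      _ = 0 := sub_eq_zero.mpr hc
  rw [hxa, mul_add, add_mul, mul_one, one_mul, hza]

end Cfsg.Lib.Inverted
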