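import Mathlib
import Cfsg.Agent.Lib.PLocal.ZJ
import Cfsg.Agent.Lib.PLocal.ZJStable

/-!
When `Z(J(S))` is not normal some element of a largest abelian subgroup of `S` acts quadratically on
a normal `p`-subgroup without lying in the `p`-core modulo its centralizer.
-/

set_option autoImplicit false
set_option linter.style.haveILetI false

open scoped commutatorElement
open Cfsg Cfsg.Lib.PLocal

namespace Cfsg.Lib.Inverted

variable {G : Type*} [Group G] [Finite G] {p : ℕ}

/-- Stability for the elements of the largest abelian subgroups of `S`. -/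
def StableOnMax (p : ℕ) (S : Subgroup G) : Prop :=
  ∀ (B : Subgroup G) [B.Normal], IsPGroup p B → ∀ A ∈ maxF Ab S, ∀ a ∈ A,
    ⁅⁅B, Subgroup.zpowers a⁆, Subgroup.zpowers a⁆ = ⊥ →
      (QuotientGroup.mk a : G ⧸ Subgroup.centralizer (B : Set G)) ∈ pCore p (G ⧸ Subgroup.centralizer (B : Set G))

/-- The preimage of the `p`-core of `G ⧸ C` is `C` times its intersection with a Sylow subgroup. -/
theorem preimage_pCore_le [Fact p.Prime] (C : Subgroup G) [C.Normal] (S : Sylow p G) :
    (pCore p (G ⧸ C)).comap (QuotientGroup.mk' C) ≤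
      C ⊔ ((S : Subgroup G) ⊓ (pCore p (G ⧸ C)).comap (QuotientGroup.mk' C)) := by
  haveI := Transfer.pCore_normal (G := G ⧸ C) p
  intro x hx
  have hq := QuotientGroup.mk'_surjective C
  have h1 : pCore p (G ⧸ C) ≤ Subgroup.map (QuotientGroup.mk' C) (S : Subgroup G) :=
    Transfer.pCore_le_sylow (S.mapSurjective hq)
  obtain ⟨s, hs, e⟩ := Subgroup.mem_map.1 (h1 (Subgroup.mem_comap.1 hx))
  rw [show x = (x * s⁻¹) * s by group]
  refine mul_mem (Subgroup.mem_sup_left ?_) (Subgroup.mem_sup_right ⟨hs, ?_⟩)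
  · rw [← QuotientGroup.eq_one_iff]
    show QuotientGroup.mk' C (x * s⁻¹) = 1
    rw [map_mul, map_inv, e, mul_inv_cancel]
  · show QuotientGroup.mk' C s ∈ pCore p (G ⧸ C)
    rw [e]
    exact hx

/-- Glauberman's theorem on `B ⊓ Z(J(S))` under the weaker stability. -/
theorem inf_zF_normal_max [Fact p.Prime] (hp2 : p ≠ 2) (S : Sylow p G)
    (hst : StableOnMax p (S : Subgroup G)) :
    ∀ (B : Subgroup G), B.Normal → IsPGroup p B → (B ⊓ zF Ab (S : Subgroup G)).Normal := by
  intro B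
  induction hn : Nat.card B using Nat.strong_induction_on generalizing B with
  | _ n ih =>
  intro hBn hBp
  subst hn
  set Z := zF Ab (S : Subgroup G)
  set Z' := B ⊓ Z with hZ'
  have hBS : B ≤ S := (Transfer.le_pCore hBn hBp).trans (Transfer.pCore_le_sylow S)
  have hSZ : (S : Subgroup G) ≤ Subgroup.normalizer (Z : Set G) :=
    Subgroup.le_normalizer.trans (normalizer_le_zF ab_conj ab_bot _)
  set B1 := Subgroup.normalClosure (Z' : Set G) with hB1
  have hB1B : B1 ≤ B := Subgroup.normalClosure_le_normal (fun x hx => hx.1)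
  rcases eq_or_lt_of_le hB1B with hB1e | hlt
  swap
  · have e : B1 ⊓ Z = Z' := le_antisymm (inf_le_inf_right Z hB1B)
      (le_inf Subgroup.le_normalClosure inf_le_right)
    rw [← e]
    refine ih _ ?_ B1 rfl Subgroup.normalClosure_normal (hBp.to_le hB1B)
    exact lt_of_le_of_ne (Subgroup.card_le_of_le hB1B) fun e => hlt.ne (Subgroup.eq_of_le_of_card_ge hB1B e.ge)
  by_cases hne : B = ⊥
  · rw [show Z' = ⊥ by rw [hZ', hne, bot_inf_eq]]; infer_instance
  by_cases hBZ : B ≤ Z
  · rw [hZ', inf_eq_left.2 hBZ]; exact hBn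
  have hlt' := commutator_lt_self hBp hne
  have hW : (⁅B, B⁆ ⊓ Z).Normal := by
    refine ih _ ?_ _ rfl (Subgroup.commutator_normal B B) (hBp.to_le hlt'.le)
    exact lt_of_le_of_ne (Subgroup.card_le_of_le hlt'.le) fun e => hlt'.ne (Subgroup.eq_of_le_of_card_ge hlt'.le e.ge)
  have hBB : ⁅B, B⁆ ≤ ⁅B, B⁆ ⊓ Z := by
    have := commutator_le_of_normalClosure (X := Z') (B := B) (W := ⁅B, B⁆ ⊓ Z)
      (le_inf (Subgroup.commutator_mono inf_le_left le_rfl) ((Subgroup.commutator_mono inf_le_right le_rfl).trans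
        (commutator_le_of_le_normalizer (hBS.trans hSZ) le_rfl)))
    rwa [← hB1, hB1e] at this
  have hBBZ : ⁅B, B⁆ ≤ Z := hBB.trans inf_le_right
  obtain ⟨U, hU, hBU⟩ : ∃ U ∈ maxF Ab (S : Subgroup G), ¬ B ≤ U := by
    by_contra hc
    push Not at hc
    exact hBZ (le_sInf hc)
  obtain ⟨A, hA, hnA, hBA⟩ := exists_normalized hp2 (fun _ h => h) (fun _ _ _ h _ _ => h) S.isPGroup' hBS
    ⟨U, hU, hBBZ.trans (sInf_le hU), hBU⟩
  set C := Subgroup.centralizer (B : Set G)
  haveI : C.Normal := inferInstance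
  haveI := Transfer.pCore_normal (G := G ⧸ C) p
  set L := (pCore p (G ⧸ C)).comap (QuotientGroup.mk' C) with hL
  haveI : L.Normal := Subgroup.Normal.comap inferInstance _
  have hAL : A ≤ L := fun a ha => by
    refine hst B hBp A hA a ha ?_
    have h1 : Subgroup.zpowers a ≤ A := Subgroup.zpowers_le.2 ha
    refine le_bot_iff.1 ((Subgroup.commutator_mono (Subgroup.commutator_mono le_rfl h1) h1).trans ?_)
    rw [le_bot_iff, Subgroup.commutator_eq_bot_iff_le_centralizer]
    refine le_trans ?_ (fun x hx => Subgroup.mem_centralizer_iff.2 fun y hy => hA.2.1 y hy x hx)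
    rw [Subgroup.commutator_comm]
    exact commutator_le_of_le_normalizer hBA le_rfl
  obtain ⟨Q, hQ⟩ := Solv.sylow_inf_subnormal (H := L) (Subgroup.Normal.isSubnormal inferInstance) S
  set T := (S : Subgroup G) ⊓ L with hT
  have hQT : (Q : Subgroup L).map L.subtype = T := by
    rw [hQ, Subgroup.subgroupOf_map_subtype]
  have hfr : Subgroup.normalizer (T : Set G) ⊔ L = ⊤ := by
    rw [← hQT]; exact Q.normalizer_sup_eq_top
  have hgen : (Subgroup.normalizer (T : Set G)) ⊔ C = ⊤ := by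
    rw [eq_top_iff, ← hfr]
    refine sup_le le_sup_left ((preimage_pCore_le C S).trans (sup_le le_sup_right ?_))
    exact Subgroup.le_normalizer.trans le_sup_left
  have hmono : Z ≤ zF Ab T := zF_mono inf_le_left hA (le_inf hA.1 hAL)
  have hNT := normalizer_le_zF ab_conj ab_bot T
  set Z1 := B ⊓ zF Ab T
  have hBZ1 : B ≤ Z1 := by
    rw [← hB1e]
    show Subgroup.closure _ ≤ _
    rw [Subgroup.closure_le]
    intro y hy
    obtain ⟨x, hx, hxy⟩ := Group.mem_conjugatesOfSet_iff.1 hy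
    obtain ⟨g, rfl⟩ := isConj_iff.1 hxy
    obtain ⟨u, hu, c, hc, rfl⟩ := Subgroup.mem_sup_of_normal_right.1 (hgen ▸ Subgroup.mem_top g)
    have e : c * x * c⁻¹ = x := by
      rw [← Subgroup.mem_centralizer_iff.1 hc x hx.1, mul_inv_cancel_right]
    rw [show u * c * x * (u * c)⁻¹ = u * (c * x * c⁻¹) * u⁻¹ by group, e]
    exact ⟨hBn.conj_mem x hx.1 u, (Subgroup.mem_normalizer_iff.1 (hNT hu) x).1 (hmono hx.2)⟩
  exfalso
  refine hnA (hBZ1.trans (inf_le_right.trans (sInf_le ⟨le_inf hA.1 hAL, hA.2.1, fun X hX hPX => ?_⟩)))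
  exact hA.2.2 X (hX.trans inf_le_left) hPX

/-- A non-normal `Z(J(S))` yields a quadratic witness, provided every Sylow intersection with the
preimage of the `p`-core of `G ⧸ C(O_p(G))` lies in `O_p(G)`. -/
theorem exists_witness [Fact p.Prime] (hp2 : p ≠ 2) (S : Sylow p G)
    (hn : ¬ (zF Ab (S : Subgroup G)).Normal)
    (hO : (S : Subgroup G) ⊓ (pCore p (G ⧸ Subgroup.centralizer (pCore p G : Set G))).comap
      (QuotientGroup.mk' (Subgroup.centralizer (pCore p G : Set G))) ≤ pCore p G) :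
    ∃ (B : Subgroup G) (_ : B.Normal), IsPGroup p B ∧ ∃ A ∈ maxF Ab (S : Subgroup G), ∃ a ∈ A,
      ⁅⁅B, Subgroup.zpowers a⁆, Subgroup.zpowers a⁆ = ⊥ ∧
      (QuotientGroup.mk a : G ⧸ Subgroup.centralizer (B : Set G)) ∉
        pCore p (G ⧸ Subgroup.centralizer (B : Set G)) := by
  by_contra hc
  push Not at hc
  have hst : StableOnMax p (S : Subgroup G) := fun B hBn hBp A hA a ha hq => hc B hBn hBp A hA a ha hq
  refine hn ?_
  set Z := zF Ab (S : Subgroup G)
  haveI := Transfer.pCore_normal (G := G) p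
  set O := pCore p G
  have hOp : IsPGroup p O := Transfer.pCore_isPGroup p
  suffices hZO : Z ≤ O by
    have := inf_zF_normal_max hp2 S hst O inferInstance hOp
    rwa [inf_eq_right.2 hZO] at this
  intro a ha
  have hOS : O ≤ S := Transfer.pCore_le_sylow S
  have hSZ : (S : Subgroup G) ≤ Subgroup.normalizer (Z : Set G) :=
    Subgroup.le_normalizer.trans (normalizer_le_zF ab_conj ab_bot _)
  have h1 : Subgroup.zpowers a ≤ Z := Subgroup.zpowers_le.2 ha
  have hq : ⁅⁅O, Subgroup.zpowers a⁆, Subgroup.zpowers a⁆ = ⊥ := by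
    refine le_bot_iff.1 ((Subgroup.commutator_mono (Subgroup.commutator_mono le_rfl h1) h1).trans ?_)
    rw [le_bot_iff, Subgroup.commutator_eq_bot_iff_le_centralizer]
    refine le_trans ?_ (fun x hx => Subgroup.mem_centralizer_iff.2 fun y hy =>
      zF_ab (fun _ h => h) ab_bot _ y hy x hx)
    rw [Subgroup.commutator_comm]
    exact commutator_le_of_le_normalizer (hOS.trans hSZ) le_rfl
  obtain ⟨A, hA⟩ := maxF_nonempty ab_bot (S : Subgroup G)
  exact hO ⟨zF_le ab_bot _ ha, hst O hOp A hA a (sInf_le hA ha) hq⟩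

end Cfsg.Lib.Inverted
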